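import Cfsg.Agent.H704.Transpose

/-!
# Hook products of near-hooks and of partitions with two long rows (helper211, S4766 O1)

`G x v = ∏_{j < x} (x - j + v j)`.

* `G_bound`, `G_bound_two` : `G x v` is at most `(x + 1) x! / (x + 1 - s)` for antitone `v` of sum `s ≤ x`, and at most
  `(x + 1) (x + 2) x! / (2 x + 2 - s)` for `x ≤ s ≤ 2 x`;
* `hook_form` : `hookProd = (a + b + 1) * G a σ * G b σ' * hookProd σ`;
* `rows_form` : `hookProd (A :: B :: ρ) * (A + 1 - B) = G (A + 1) ρ' * G B ρ' * hookProd ρ`.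
-/

set_option autoImplicit false
set_option linter.unusedSectionVars false

namespace Cfsg.Agent.H211.O1

open Finset Cfsg.Agent.H704

/-- the product of the shifted factors -/
def G (x : ℕ) (v : ℕ → ℕ) : ℕ := ∏ j ∈ range x, (x - j + v j)

theorem G_zero (v : ℕ → ℕ) : G 0 v = 1 := by simp [G]

theorem G_succ (x : ℕ) (v : ℕ → ℕ) : G (x + 1) v = (x + 1 + v 0) * G x fun j => v (j + 1) := by
  unfold G
  rw [prod_range_succ', mul_comm]
  congr 1
  apply prod_congr rfl
  intro j _
  rw [show x + 1 - (j + 1) = x - j by omega]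

theorem G_pos (x : ℕ) (v : ℕ → ℕ) : 0 < G x v := by
  unfold G
  apply prod_pos
  intro j hj
  rw [mem_range] at hj
  omega

theorem G_const_zero {x : ℕ} {v : ℕ → ℕ} (h : ∀ j < x, v j = 0) : G x v = x.factorial := by
  unfold G
  rw [← prod_range_add_one_eq_factorial, ← prod_range_reflect]
  apply prod_congr rfl
  intro j hj
  rw [mem_range] at hj
  rw [h _ (by omega)]
  omega

theorem factorial_le_G (x : ℕ) (v : ℕ → ℕ) : x.factorial ≤ G x v := by
  rw [← G_const_zero (v := fun _ => 0) (x := x) (fun _ _ => rfl)]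
  unfold G
  apply prod_le_prod'
  intro j _
  exact Nat.add_le_add_left (Nat.zero_le _) _

theorem eq_zero_of_antitone {v : ℕ → ℕ} (hv : Antitone v) (h : v 0 = 0) (j : ℕ) : v j = 0 := by
  have := hv (Nat.zero_le j)
  omega

theorem G_bound : ∀ (x : ℕ) (v : ℕ → ℕ), Antitone v → ∀ s : ℕ, ∑ j ∈ range x, v j = s → s ≤ x →
    G x v * (x + 1 - s) ≤ (x + 1) * x.factorial := by
  intro x
  induction x with
  | zero =>
    intro v hv s hs hsx
    rw [G_zero]
    simp
  | succ x ih =>
    intro v hv s hs hsx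
    rcases Nat.eq_zero_or_pos (v 0) with h0 | h0
    · have h1 := eq_zero_of_antitone hv h0
      rw [G_const_zero (fun j _ => h1 j)]
      rw [mul_comm]
      apply Nat.mul_le_mul_right
      omega
    · have hv' : Antitone fun j => v (j + 1) := fun a b hab => hv (by omega)
      rw [sum_range_succ'] at hs
      have h2 := ih _ hv' (s - v 0) (by omega) (by omega)
      rw [G_succ]
      have h3 : (x + 1 + v 0) * (x + 1 + 1 - s) ≤ (x + 1 + 1) * (x + 1 - (s - v 0)) := by
        obtain ⟨w, hw⟩ : ∃ w, v 0 = w + 1 := ⟨v 0 - 1, by omega⟩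
        obtain ⟨t, ht⟩ : ∃ t, s = t + (w + 1) := ⟨s - (w + 1), by omega⟩
        obtain ⟨y, hy⟩ : ∃ y, x = y + t + w := ⟨x - t - w, by omega⟩
        rw [hw, ht, hy]
        rw [show y + t + w + 1 + 1 - (t + (w + 1)) = y + 1 by omega,
          show y + t + w + 1 - (t + (w + 1) - (w + 1)) = y + w + 1 by omega]
        nlinarith [Nat.zero_le (w * (t + w + 1))]
      calc (x + 1 + v 0) * (G x fun j => v (j + 1)) * (x + 1 + 1 - s)
          = (G x fun j => v (j + 1)) * ((x + 1 + v 0) * (x + 1 + 1 - s)) := by ring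
        _ ≤ (G x fun j => v (j + 1)) * ((x + 1 + 1) * (x + 1 - (s - v 0))) := Nat.mul_le_mul_left _ h3
        _ = (x + 1 + 1) * ((G x fun j => v (j + 1)) * (x + 1 - (s - v 0))) := by ring
        _ ≤ (x + 1 + 1) * ((x + 1) * x.factorial) := Nat.mul_le_mul_left _ h2
        _ = _ := by rw [Nat.factorial_succ]

theorem G_bound_two : ∀ (x : ℕ) (v : ℕ → ℕ), Antitone v → ∀ s : ℕ, ∑ j ∈ range x, v j = s → x ≤ s → s ≤ 2 * x →
    G x v * (2 * x + 2 - s) ≤ (x + 1) * (x + 2) * x.factorial := by
  intro x
  induction x with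
  | zero =>
    intro v hv s hs h1 h2
    rw [G_zero]
    simp
  | succ x ih =>
    intro v hv s hs h1 h2
    have hv' : Antitone fun j => v (j + 1) := fun a b hab => hv (by omega)
    have hs' := hs
    rw [sum_range_succ'] at hs
    rw [G_succ]
    have h0 : v 0 ≠ 0 := by
      intro h0
      have h3 := eq_zero_of_antitone hv h0
      rw [sum_eq_zero (fun j _ => h3 _)] at hs
      omega
    by_cases hv1 : v 0 = 1
    · -- then `s = x + 1`
      have h3 : ∑ j ∈ range (x + 1), v j ≤ ∑ j ∈ range (x + 1), 1 := by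
        apply sum_le_sum
        intro j _
        have := hv (Nat.zero_le j)
        omega
      rw [hs'] at h3
      simp only [sum_const, card_range, smul_eq_mul, mul_one] at h3
      have h4 : s = x + 1 := by omega
      have h5 := G_bound (x + 1) v hv s hs' (by omega)
      rw [G_succ, h4] at h5
      rw [h4]
      rw [show x + 1 + 1 - (x + 1) = 1 by omega, mul_one] at h5
      rw [show 2 * (x + 1) + 2 - (x + 1) = x + 1 + 2 by omega]
      calc (x + 1 + v 0) * (G x fun j => v (j + 1)) * (x + 1 + 2)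
          ≤ ((x + 1 + 1) * (x + 1).factorial) * (x + 1 + 2) := Nat.mul_le_mul_right _ h5
        _ = _ := by ring
    · by_cases hs1 : x ≤ s - v 0
      · have h3 := ih _ hv' (s - v 0) (by omega) hs1 (by omega)
        have h4 : (x + 1 + v 0) * (2 * (x + 1) + 2 - s) ≤ (x + 1 + 2) * (2 * x + 2 - (s - v 0)) := by
          obtain ⟨w, hw⟩ : ∃ w, v 0 = w + 2 := ⟨v 0 - 2, by omega⟩
          obtain ⟨t, ht⟩ : ∃ t, s = t + x + w + 2 := ⟨s - (x + w + 2), by omega⟩
          obtain ⟨y, hy⟩ : ∃ y, x = y + t + w := ⟨x - t - w, by omega⟩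
          rw [hw, ht, hy]
          rw [show 2 * (y + t + w + 1) + 2 - (t + (y + t + w) + w + 2) = y + 2 by omega,
            show 2 * (y + t + w) + 2 - (t + (y + t + w) + w + 2 - (w + 2)) = y + w + 2 by omega]
          nlinarith [Nat.zero_le (w * (t + w + 1))]
        calc (x + 1 + v 0) * (G x fun j => v (j + 1)) * (2 * (x + 1) + 2 - s)
            = (G x fun j => v (j + 1)) * ((x + 1 + v 0) * (2 * (x + 1) + 2 - s)) := by ring
          _ ≤ (G x fun j => v (j + 1)) * ((x + 1 + 2) * (2 * x + 2 - (s - v 0))) := Nat.mul_le_mul_left _ h4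
          _ = (x + 1 + 2) * ((G x fun j => v (j + 1)) * (2 * x + 2 - (s - v 0))) := by ring
          _ ≤ (x + 1 + 2) * ((x + 1) * (x + 2) * x.factorial) := Nat.mul_le_mul_left _ h3
          _ = _ := by rw [Nat.factorial_succ]; ring
      · rw [not_le] at hs1
        have h3 := G_bound x _ hv' (s - v 0) (by omega) (by omega)
        -- `(x + 1 + v0) (2 x + 4 - s) ≤ (x + 3) (x + 2) (x + 1 - (s - v0)) ` 
        have h4 : (x + 1 + v 0) * (2 * (x + 1) + 2 - s) ≤ (x + 1 + 1) * (x + 1 + 2) * (x + 1 - (s - v 0)) := by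
          by_cases hvs : v 0 ≤ s
          · obtain ⟨t, ht⟩ : ∃ t, s = t + v 0 := ⟨s - v 0, by omega⟩
            obtain ⟨y, hy⟩ : ∃ y, x = t + y + 1 := ⟨x - t - 1, by omega⟩
            -- s = t + v0 ≥ x + 1 = t + y + 2 so v0 = y + 2 + w
            obtain ⟨w, hw⟩ : ∃ w, v 0 = y + 2 + w := ⟨v 0 - (y + 2), by omega⟩
            rw [ht, hy, hw]
            rw [show t + y + 1 + 1 - (t + (y + 2 + w) - (y + 2 + w)) = y + 2 by omega]
            have h5 : 2 * (t + y + 1 + 1) + 2 - (t + (y + 2 + w)) = t + y + 4 - w := by omega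
            rw [h5]
            obtain ⟨c, hc⟩ : ∃ c, t + y + 4 - w = c := ⟨_, rfl⟩
            rw [hc]
            have hc1 : c + w = t + y + 4 := by omega
            have h6 : (t + y + 1 + 1 + (y + 2 + w)) * c ≤ (t + y + 3) * (t + y + 4) * (y + 2) := by
              have h7 : w * c ≤ w * (t + 2 * y + 4) := Nat.mul_le_mul_left _ (by omega)
              have h8 : (t + 2 * y + 4) * (t + y + 4) ≤ (t + y + 3) * (y + 2) * (t + y + 4) :=
                Nat.mul_le_mul_right _ (by nlinarith [Nat.zero_le (t * y), Nat.zero_le (y * y)])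
              calc (t + y + 1 + 1 + (y + 2 + w)) * c = (t + 2 * y + 4) * c + w * c := by ring
                _ ≤ (t + 2 * y + 4) * c + w * (t + 2 * y + 4) := Nat.add_le_add_left h7 _
                _ = (t + 2 * y + 4) * (c + w) := by ring
                _ = (t + 2 * y + 4) * (t + y + 4) := by rw [hc1]
                _ ≤ _ := h8
                _ = _ := by ring
            calc _ = (t + y + 1 + 1 + (y + 2 + w)) * c := by ring
              _ ≤ _ := h6
              _ = _ := by ring
          · exfalso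
            rw [not_le] at hvs
            omega
        calc (x + 1 + v 0) * (G x fun j => v (j + 1)) * (2 * (x + 1) + 2 - s)
            = (G x fun j => v (j + 1)) * ((x + 1 + v 0) * (2 * (x + 1) + 2 - s)) := by ring
          _ ≤ (G x fun j => v (j + 1)) * ((x + 1 + 1) * (x + 1 + 2) * (x + 1 - (s - v 0))) := Nat.mul_le_mul_left _ h4
          _ = ((x + 1 + 1) * (x + 1 + 2)) * ((G x fun j => v (j + 1)) * (x + 1 - (s - v 0))) := by ring
          _ ≤ ((x + 1 + 1) * (x + 1 + 2)) * ((x + 1) * x.factorial) := Nat.mul_le_mul_left _ h3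
          _ = _ := by rw [Nat.factorial_succ]

theorem G_bound' {x : ℕ} {v : ℕ → ℕ} (hv : Antitone v) {s : ℕ} (hs : ∑ j ∈ range x, v j ≤ s) (hsx : s ≤ x) :
    G x v * (x + 1 - s) ≤ (x + 1) * x.factorial :=
  (Nat.mul_le_mul_left _ (by omega)).trans (G_bound x v hv _ rfl (hs.trans hsx))

theorem G_bound_two' {x : ℕ} {v : ℕ → ℕ} (hv : Antitone v) {s : ℕ} (hs : ∑ j ∈ range x, v j ≤ s) (h1 : x ≤ s)
    (h2 : s ≤ 2 * x) : G x v * (2 * x + 2 - s) ≤ (x + 1) * (x + 2) * x.factorial := by
  by_cases h3 : x ≤ ∑ j ∈ range x, v j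
  · exact (Nat.mul_le_mul_left _ (by omega)).trans (G_bound_two x v hv _ rfl h3 (hs.trans h2))
  · have h4 := G_bound x v hv _ rfl (not_le.1 h3).le
    have h5 : G x v ≤ (x + 1) * x.factorial := le_trans (Nat.le_mul_of_pos_right _ (by omega)) h4
    calc G x v * (2 * x + 2 - s) ≤ ((x + 1) * x.factorial) * (x + 2) := Nat.mul_le_mul h5 (by omega)
      _ = _ := by ring

/-- sums of columns -/
theorem sum_colLen {l : List ℕ} (hl : Dec l) (x : ℕ) : ∑ j ∈ range x, colLen l j ≤ l.sum := by
  rw [← sum_transpose hl, sum_eq_sum_range, length_transpose]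
  have h1 : ∀ j, colLen l j = (transpose l).getD j 0 := fun j => (getD_transpose hl j).symm
  simp only [h1]
  rcases le_total x (l.headD 0) with h | h
  · exact sum_le_sum_of_subset (by intro j hj; rw [mem_range] at hj ⊢; omega)
  · apply le_of_eq
    symm
    apply sum_subset
    · intro j hj
      rw [mem_range] at hj ⊢
      omega
    · intro j _ hj
      rw [mem_range] at hj
      rw [List.getD_eq_default]
      rw [length_transpose]
      omega

theorem sum_getD {l : List ℕ} (hl : Dec l) (x : ℕ) : ∑ j ∈ range x, l.getD j 0 ≤ l.sum := by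
  have h1 := sum_colLen (pairwise_transpose l) x
  rw [sum_transpose hl] at h1
  simpa only [colLen_transpose' hl] using h1

/-! ### the two forms of the hook product -/

theorem colLen_antitone (l : List ℕ) : Antitone (colLen l) := fun _ _ h => colLen_anti l h

theorem getD_antitone {l : List ℕ} (hl : Dec l) : Antitone fun j => l.getD j 0 := by
  intro i j h
  have h1 : (transpose (transpose l)).getD j 0 ≤ (transpose (transpose l)).getD i 0 := by
    rw [getD_transpose (pairwise_transpose l), getD_transpose (pairwise_transpose l)]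
    exact colLen_anti _ h
  rw [getD_transpose (pairwise_transpose l), getD_transpose (pairwise_transpose l), colLen_transpose' hl,
    colLen_transpose' hl] at h1
  exact h1

theorem hook_form {A n : ℕ} {t : List ℕ} (hl : IsPart (A :: t) n) :
    ∃ (a b s : ℕ) (σ : List ℕ), A = a + 1 ∧ b = colLen t 0 ∧ IsPart σ s ∧ n = a + b + 1 + s ∧
      hookProd (A :: t) = (a + b + 1) * G a (fun j => σ.getD j 0) * G b (colLen σ) * hookProd σ := by
  have hA : 0 < A := hl.pos A (by simp)
  obtain ⟨a, rfl⟩ : ∃ a, A = a + 1 := ⟨A - 1, by omega⟩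
  have ht : IsPart t t.sum := ⟨hl.sorted.of_cons, fun c hc => hl.pos c (List.mem_cons_of_mem _ hc), rfl⟩
  have hn : a + 1 + t.sum = n := by have := hl.sum; rwa [List.sum_cons] at this
  have hT := isPart_transpose ht
  have hget : ∀ j, colLen t j = (transpose t).getD j 0 := fun j => (getD_transpose ht.sorted j).symm
  have hprod := hookProd_transpose' ht.sorted
  rcases hTt : transpose t with _ | ⟨b, σ⟩
  · rw [hTt] at hT hprod
    have h0 : t.sum = 0 := by have := hT.sum; simpa using this.symm
    have hz : ∀ j, colLen t j = 0 := by intro j; rw [hget, hTt]; simp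
    refine ⟨a, 0, 0, [], rfl, (hz 0).symm, ⟨List.Pairwise.nil, by simp, rfl⟩, by omega, ?_⟩
    rw [show hookProd ((a + 1) :: t) = rowHook (a + 1) t * hookProd t from rfl, ← hprod, rowHook_eq, G_zero,
      G_const_zero (x := a) (by intro j _; simp)]
    simp only [hz, add_zero]
    have h1 : ∏ j ∈ range (a + 1), (a + 1 - j) = (a + 1).factorial := by
      rw [← G_const_zero (x := a + 1) (v := fun _ => 0) (fun _ _ => rfl)]
      rfl
    rw [h1, Nat.factorial_succ, hookProd]
    ring
  · rw [hTt] at hT hprod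
    have hsum := hT.sum
    rw [List.sum_cons] at hsum
    have hz0 : colLen t 0 = b := by rw [hget, hTt]; simp
    refine ⟨a, b, σ.sum, σ, rfl, hz0.symm, ⟨hT.sorted.of_cons, fun c hc => hT.pos c (List.mem_cons_of_mem _ hc), rfl⟩,
      by omega, ?_⟩
    rw [show hookProd ((a + 1) :: t) = rowHook (a + 1) t * hookProd t from rfl, ← hprod,
      show hookProd (b :: σ) = rowHook b σ * hookProd σ from rfl, rowHook_eq, rowHook_eq, prod_range_succ']
    have h1 : ∏ k ∈ range a, (a + 1 - (k + 1) + colLen t (k + 1)) = G a fun j => σ.getD j 0 := by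
      unfold G
      apply prod_congr rfl
      intro j _
      rw [hget, hTt, List.getD_cons_succ, show a + 1 - (j + 1) = a - j by omega]
    rw [h1, hz0]
    unfold G
    rw [show a + 1 - 0 + b = a + b + 1 by omega]
    ring

theorem rows_form {A B n : ℕ} {ρ : List ℕ} (hl : IsPart (A :: B :: ρ) n) :
    hookProd (A :: B :: ρ) * (A + 1 - B) = G (A + 1) (colLen ρ) * G B (colLen ρ) * hookProd ρ := by
  have hAB : B ≤ A := List.rel_of_pairwise_cons hl.sorted (by simp)
  have hB := hl.sorted.of_cons
  have hρ : ∀ c ∈ ρ, c ≤ B := fun c hc => List.rel_of_pairwise_cons hB hc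
  have hz : ∀ j, B ≤ j → colLen ρ j = 0 := fun j hj => colLen_eq_zero fun c hc => (hρ c hc).trans hj
  obtain ⟨w, rfl⟩ : ∃ w, A = B + w := ⟨A - B, by omega⟩
  have h1 : rowHook (B + w) (B :: ρ) = (∏ j ∈ range B, (B + w + 1 - j + colLen ρ j)) * w.factorial := by
    rw [rowHook_eq, prod_range_add]
    congr 1
    · apply prod_congr rfl
      intro j hj
      rw [mem_range] at hj
      rw [colLen_cons, if_pos hj]
      omega
    · rw [← G_const_zero (x := w) (v := fun _ => 0) (fun _ _ => rfl)]
      unfold G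
      apply prod_congr rfl
      intro j _
      rw [colLen_cons, if_neg (by omega), hz _ (by omega), show B + w - (B + j) = w - j by omega]
  have h2 : G (B + w + 1) (colLen ρ) = (∏ j ∈ range B, (B + w + 1 - j + colLen ρ j)) * (w + 1).factorial := by
    unfold G
    rw [show B + w + 1 = B + (w + 1) by omega, prod_range_add]
    congr 1
    rw [← G_const_zero (x := w + 1) (v := fun _ => 0) (fun _ _ => rfl)]
    unfold G
    apply prod_congr rfl
    intro j _
    rw [hz _ (by omega), show B + (w + 1) - (B + j) = w + 1 - j by omega]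
  rw [hookProd, hookProd, h1, h2, Nat.factorial_succ, show B + w + 1 - B = w + 1 by omega, rowHook_eq B ρ]
  unfold G
  ring

end Cfsg.Agent.H211.O1
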